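import Mathlib
import Cfsg.Agent.H319.FC.Sem

/-!
# S5764, SP4G: the subgroup `SL_2(F) × SL_2(F)` of `Sp_4(F)`
-/

set_option autoImplicit false

namespace Cfsg.Agent.H319.FC

open Cfsg
open Cfsg.Agent.ClassicalGeometry.SympBasic Cfsg.Agent.ClassicalGeometry.SympAutSemi
open Cfsg.Agent.ClassicalGeometry.Sp4Graph Cfsg.Agent.ClassicalGeometry.Sp4GraphAut
open scoped Matrix

universe u

variable {F : Type u} [Field F]

/-- `SL_2(F)` -/
abbrev SL2 (F : Type u) [Field F] := Matrix.SpecialLinearGroup (Fin 2) F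

/-- the block matrix on `⟨e₁, f₁⟩ ⊥ ⟨e₂, f₂⟩` -/
def blk (a b : Matrix (Fin 2) (Fin 2) F) : Matrix I4 I4 F :=
  Matrix.fromBlocks (Matrix.diagonal ![a 0 0, b 0 0]) (Matrix.diagonal ![a 0 1, b 0 1])
    (Matrix.diagonal ![a 1 0, b 1 0]) (Matrix.diagonal ![a 1 1, b 1 1])

theorem blk_mul (a b a' b' : Matrix (Fin 2) (Fin 2) F) : blk a b * blk a' b' = blk (a * a') (b * b') := by
  ext i j
  rcases i with i | i <;> rcases j with j | j <;> fin_cases i <;> fin_cases j <;>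
    simp [blk, Matrix.mul_apply, Fintype.sum_sum_type, Fin.sum_univ_two]

theorem blk_one : blk (1 : Matrix (Fin 2) (Fin 2) F) 1 = 1 := by
  ext i j
  rcases i with i | i <;> rcases j with j | j <;> fin_cases i <;> fin_cases j <;>
    simp [blk]

theorem blk_mulVec (a b : Matrix (Fin 2) (Fin 2) F) (x : I4 → F) : blk a b *ᵥ x =
    (a 0 0 * x (.inl 0) + a 0 1 * x (.inr 0)) • e1 F + (b 0 0 * x (.inl 1) + b 0 1 * x (.inr 1)) • e2 F +
    (a 1 0 * x (.inl 0) + a 1 1 * x (.inr 0)) • f1 F + (b 1 0 * x (.inl 1) + b 1 1 * x (.inr 1)) • f2 F := by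
  ext i
  rcases i with i | i <;> fin_cases i <;>
    simp [blk, Matrix.mulVec, dotProduct, Fintype.sum_sum_type, Fin.sum_univ_two, e1, e2, f1, f2]

theorem blk_mem [CharP F 2] {a b : Matrix (Fin 2) (Fin 2) F} (ha : a.det = 1) (hb : b.det = 1) :
    blk a b ∈ Matrix.symplecticGroup (Fin 2) F := by
  have hn : ∀ y : F, -y = y := fun y => CharTwo.neg_eq y
  rw [Matrix.det_fin_two] at ha hb
  rw [mem_symplecticGroup_iff]
  intro u v
  rw [sympForm_eq, sympForm_eq, blk_mulVec, blk_mulVec]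
  simp [e1, e2, f1, f2]
  rw [sub_eq_add_neg, hn] at ha hb
  have h2 : (2 : F) = 0 := CharTwo.two_eq_zero
  linear_combination (u (.inl 0) * v (.inr 0) + u (.inr 0) * v (.inl 0)) * ha +
    (u (.inl 1) * v (.inr 1) + u (.inr 1) * v (.inl 1)) * hb +
    (a 0 0 * a 1 0 * u (.inl 0) * v (.inl 0) + a 0 1 * a 1 1 * u (.inr 0) * v (.inr 0) +
    b 0 0 * b 1 0 * u (.inl 1) * v (.inl 1) + b 0 1 * b 1 1 * u (.inr 1) * v (.inr 1)) * h2

/-- **The embedding `SL_2(F) × SL_2(F) → Sp_4(F)`.** -/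
def iota [CharP F 2] : SL2 F × SL2 F →* Sp4 F where
  toFun p := ⟨blk p.1.1 p.2.1, blk_mem p.1.2 p.2.2⟩
  map_one' := Subtype.ext blk_one
  map_mul' p q := Subtype.ext (by
    change blk (p.1 * q.1 : SL2 F).1 (p.2 * q.2 : SL2 F).1 = blk p.1.1 p.2.1 * blk q.1.1 q.2.1
    rw [blk_mul, Matrix.SpecialLinearGroup.coe_mul, Matrix.SpecialLinearGroup.coe_mul])

theorem iota_coe [CharP F 2] (p : SL2 F × SL2 F) : (iota p : Matrix I4 I4 F) = blk p.1.1 p.2.1 := rfl

theorem iota_injective [CharP F 2] : Function.Injective (iota (F := F)) := by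
  intro p q h
  have h1 : blk p.1.1 p.2.1 = blk q.1.1 q.2.1 := congrArg Subtype.val h
  have h2 : ∀ i j, blk p.1.1 p.2.1 i j = blk q.1.1 q.2.1 i j := fun i j => by rw [h1]
  refine Prod.ext (Subtype.ext ?_) (Subtype.ext ?_)
  · ext i j
    fin_cases i <;> fin_cases j
    · simpa [blk] using h2 (.inl 0) (.inl 0)
    · simpa [blk] using h2 (.inl 0) (.inr 0)
    · simpa [blk] using h2 (.inr 0) (.inl 0)
    · simpa [blk] using h2 (.inr 0) (.inr 0)
  · ext i j
    fin_cases i <;> fin_cases j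
    · simpa [blk] using h2 (.inl 1) (.inl 1)
    · simpa [blk] using h2 (.inl 1) (.inr 1)
    · simpa [blk] using h2 (.inr 1) (.inl 1)
    · simpa [blk] using h2 (.inr 1) (.inr 1)

theorem trace_iota [CharP F 2] (p : SL2 F × SL2 F) :
    Matrix.trace (iota p : Matrix I4 I4 F) = Matrix.trace p.1.1 + Matrix.trace p.2.1 := by
  rw [iota_coe]
  simp [Matrix.trace, blk, Fintype.sum_sum_type, Fin.sum_univ_two]
  ring

/-- **T12** (subtask): the torus `C(a) × C(b)`. -/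
def StT12 (F : Type u) [Field F] [CharP F 2] : Prop :=
  8 ≤ Nat.card F → ∀ (S : Subgroup (MulAut (Sp4 F))) (a b : SL2 F), a ≠ 1 → b ≠ 1 → Odd (orderOf a) → Odd (orderOf b) →
    (∀ α ∈ S, ∀ p : SL2 F × SL2 F, p.1 * a = a * p.1 → p.2 * b = b * p.2 →
      ∃ p' : SL2 F × SL2 F, p'.1 * a = a * p'.1 ∧ p'.2 * b = b * p'.2 ∧ α (iota p) = iota p') → Kill3 S

/-- **T4** (subtask): the torus of order `q² + 1`. -/
def StT4 (F : Type u) [Field F] : Prop :=
  4 ≤ Nat.card F → ∀ (S : Subgroup (MulAut (Sp4 F))) (z : Sp4 F), z ≠ 1 → Odd (orderOf z) → Irr4 z →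
    (∀ α ∈ S, ∀ y, y * z = z * y → α y * z = z * α y) → Kill3 S

end Cfsg.Agent.H319.FC
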